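import Cfsg.Agent.ARS.CyA
import Cfsg.Agent.S2378

/-!
S4185: cyclic Sylow subgroups of Chevalley groups.  Let `e = orderOf (q : ZMod s)`.  The hypotheses give
`s ∤ q`, `e ∤ 4`, `e ∤ 6` (resp. `e ∤ 2`), hence `s ∉ {2, 3, 5, 7}` (resp. `{2, 3}`; `e ∣ s - 1`), so
`s ∤ |W|`.  If `s ∤ |G|` use `cy_of_not_dvd`; else `S2378.result`: the number of degrees divisible by `e`
is `≤ 1` (`e ≥ 1`; `e ≤ 18` if it divides a degree; `interval_cases`/`decide`), and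
`Fin k → Multiplicative (ZMod N)`, `k ≤ 1`, is cyclic; `cy_of_sylow`.  `dvd_pow_sub_one_iff` (NPQ/Num).
-/

set_option autoImplicit false
set_option linter.unusedSectionVars false

namespace Cfsg.Agent.ARS

open Cfsg Cfsg.Agent.NPQ Cfsg.Lie

variable {F : Type} [Field F] [Fintype F] {s q : ℕ}

theorem cy_chev (hq : Fintype.card F = q) (hs : s.Prime) (c : ChevalleyDatum × List ℕ)
    (hc : c ∈ [(chevG2, [2, 6]), (chevB2, [2, 4]), (chevD4, [2, 4, 4, 6]), (chevF4, [2, 6, 8, 12]),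
      (chevE6, [2, 5, 6, 8, 9, 12]), (chevE7, [2, 6, 8, 10, 12, 14, 18]),
      (chevE8, [2, 8, 12, 14, 18, 20, 24, 30])]) (h1 : ¬ s ∣ q) (h2 : ¬ s ∣ c.2.prod)
    (h3 : (c.2.filter (fun e => orderOf (q : ZMod s) ∣ e)).length ≤ 1) : Cy (c.1.group F) s := by
  have := Fact.mk hs
  by_cases h4 : s ∣ Nat.card (c.1.group F)
  swap
  · exact cy_of_not_dvd hs h4
  obtain ⟨P⟩ : Nonempty (Sylow s (c.1.group F)) := inferInstance
  obtain ⟨e⟩ := S2378.result hq c hc s h1 h2 h4 P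
  refine cy_of_sylow P ?_
  generalize (c.2.filter (fun e => orderOf (q : ZMod s) ∣ e)).length = k at e h3
  interval_cases k
  · have := e.toEquiv.subsingleton
    infer_instance
  · exact isCyclic_of_surjective _ (e.trans (MulEquiv.funUnique _ _)).symm.surjective

theorem num (hq : Fintype.card F = q) (hs : s.Prime) (h : ¬ (s ∣ q ∨ s ∣ q ^ 4 - 1 ∨ s ∣ q ^ 6 - 1)) :
    ¬ s ∣ q ∧ (∀ n : ℕ, n ∣ 210 ^ 10 → ¬ s ∣ n) ∧ ∀ L : List ℕ, (∀ e ∈ List.range 19, ¬ e ∣ 4 → ¬ e ∣ 6 →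
      (L.filter (e ∣ ·)).length ≤ 1) → (∀ d ∈ L, 0 < d ∧ d ≤ 18) →
      (L.filter (fun e => orderOf (q : ZMod s) ∣ e)).length ≤ 1 := by
  have h0 : 1 ≤ q := hq ▸ Fintype.card_pos
  rw [dvd_pow_sub_one_iff h0, dvd_pow_sub_one_iff h0] at h
  push Not at h
  obtain ⟨h1, h2, h3⟩ := h
  refine ⟨h1, fun n hn k => ?_, fun L h4 h5 => ?_⟩
  · have h6 := orderOf_dvd_of_pow_eq_one (num_unit hs h1)
    have h7 : s ∣ 210 := hs.dvd_of_dvd_pow (k.trans hn)
    rw [show 210 = 2 * (3 * (5 * 7)) by norm_num] at h7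
    simp only [hs.dvd_mul, Nat.prime_dvd_prime_iff_eq hs Nat.prime_two,
      Nat.prime_dvd_prime_iff_eq hs Nat.prime_three, Nat.prime_dvd_prime_iff_eq hs Nat.prime_five,
      Nat.prime_dvd_prime_iff_eq hs (by norm_num : Nat.Prime 7)] at h7
    rcases h7 with rfl | rfl | rfl | rfl
    exacts [h2 (h6.trans (by norm_num)), h2 (h6.trans (by norm_num)), h2 h6, h3 h6]
  · by_cases h6 : orderOf (q : ZMod s) < 19
    · exact h4 _ (List.mem_range.2 h6) h2 h3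
    · rw [List.filter_eq_nil_iff.2 fun d hd k => h6 ?_]
      · simp
      · have := Nat.le_of_dvd (h5 d hd).1 (by simpa using k)
        have := (h5 d hd).2
        omega

theorem cy_G2 (hq : Fintype.card F = q) (hs : s.Prime) (h : ¬ s ∣ q * (q ^ 2 - 1)) :
    Cy (chevG2.group F) s := by
  refine cy_chev hq hs (chevG2, [2, 6]) (by simp) (fun k => h (k.mul_right _))
    (fun k => h ((hs.dvd_of_dvd_pow (k.trans (by norm_num : _ ∣ 6 ^ 2))).trans (six_dvd q))) ?_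
  have : ¬ orderOf (q : ZMod s) ∣ 2 := fun k =>
    h (((dvd_pow_sub_one_iff (hq ▸ Fintype.card_pos)).2 k).mul_left _)
  simp only [List.filter_cons, this, decide_false, List.filter_nil]
  split_ifs <;> simp_all

theorem cy_F4 (hq : Fintype.card F = q) (hs : s.Prime)
    (h : ¬ (s ∣ q ∨ s ∣ q ^ 4 - 1 ∨ s ∣ q ^ 6 - 1)) : Cy (chevF4.group F) s :=
  have ⟨h1, h2, h3⟩ := num hq hs h
  cy_chev hq hs (chevF4, [2, 6, 8, 12]) (by simp) h1 (h2 _ (by decide +kernel))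
    (h3 _ (by decide) (by decide))

theorem cy_E6 (hq : Fintype.card F = q) (hs : s.Prime)
    (h : ¬ (s ∣ q ∨ s ∣ q ^ 4 - 1 ∨ s ∣ q ^ 6 - 1)) : Cy (chevE6.group F) s :=
  have ⟨h1, h2, h3⟩ := num hq hs h
  cy_chev hq hs (chevE6, [2, 5, 6, 8, 9, 12]) (by simp) h1 (h2 _ (by decide +kernel))
    (h3 _ (by decide) (by decide))

theorem cy_E7 (hq : Fintype.card F = q) (hs : s.Prime)
    (h : ¬ (s ∣ q ∨ s ∣ q ^ 4 - 1 ∨ s ∣ q ^ 6 - 1)) : Cy (chevE7.group F) s :=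
  have ⟨h1, h2, h3⟩ := num hq hs h
  cy_chev hq hs (chevE7, [2, 6, 8, 10, 12, 14, 18]) (by simp) h1 (h2 _ (by decide +kernel))
    (h3 _ (by decide) (by decide))

end Cfsg.Agent.ARS
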