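import Cfsg.Agent.ARS.Defs
import Cfsg.Agent.Grp.UniqueOrderP

/-!
S4185: API for `Cy` (port of the `Ab` lemmas of NPQ/Api; a `p`-subgroup lies in a Sylow subgroup,
`IsPGroup.exists_le_sylow`; subgroups and images of cyclic groups are cyclic).
`exists_pair`: a non-cyclic `l`-group, `l` odd, has more than one subgroup of order `l`
(`ca find "unique.*order p.*IsCyclic"`, `ca find "isCyclic_of.*rank"`; S00xx); take `x` central of order `l`
and `y` of order `l` outside `zpowers x`.
`cy_of_proj`: an `l`-subgroup meets `ker φ` trivially, so embeds in the cyclic group `Γ`.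
-/

set_option autoImplicit false
set_option linter.unusedSectionVars false

namespace Cfsg.Agent.ARS

open Cfsg Cfsg.Agent.NPQ Subgroup

variable {K G : Type*} [Group K] [Group G] {l : ℕ}

theorem Cy.of_inj (h : Cy K l) (f : G →* K) (hf : Function.Injective f) : Cy G l := by
  intro P hP
  exact (P.equivMapOfInjective f hf).isCyclic.2 (h _ (hP.map f))

theorem cy_of_sylow [Finite K] [Fact l.Prime] (P : Sylow l K) (h : IsCyclic (P : Subgroup K)) :
    Cy K l := by
  intro Q hQ
  obtain ⟨R, hR⟩ := hQ.exists_le_sylow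
  have : IsCyclic (R : Subgroup K) := (R.equiv P).isCyclic.2 h
  exact isCyclic_of_le hR

theorem Cy.of_index [Finite G] [Finite K] (h : Cy G l) (hl : l.Prime) (f : G →* K)
    (hf : ¬ l ∣ f.range.index) : Cy K l := by
  have := Fact.mk hl
  obtain ⟨T⟩ : Nonempty (Sylow l G) := inferInstance
  have h1 := h _ T.isPGroup'
  have h2 : ¬ l ∣ ((T : Subgroup G).map f).index := by
    rw [← relIndex_mul_index (map_le_range f T), hl.dvd_mul, not_or, MonoidHom.range_eq_map,
      ← relIndex_comap, comap_map_eq, relIndex_top_right, ← MonoidHom.range_eq_map]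
    exact ⟨fun c => T.not_dvd_index (c.trans (index_dvd_of_le le_sup_left)), hf⟩
  exact cy_of_sylow ((T.isPGroup'.map f).toSylow h2)
    (isCyclic_of_surjective _ (f.subgroupMap_surjective T))

theorem Cy.of_surj [Finite G] (h : Cy G l) (hl : l.Prime) (f : G →* K)
    (hf : Function.Surjective f) : Cy K l := by
  have := Finite.of_surjective f hf
  exact h.of_index hl f (by rw [MonoidHom.range_eq_top.2 hf, index_top, Nat.dvd_one]; exact hl.ne_one)

theorem Cy.quot [Finite G] (h : Cy G l) (hl : l.Prime) : Cy (G ⧸ center G) l := by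
  exact h.of_surj hl _ (QuotientGroup.mk'_surjective _)

theorem cy_of_not_dvd [Finite K] (hl : l.Prime) (h : ¬ l ∣ Nat.card K) : Cy K l := by
  have := Fact.mk hl
  intro P hP
  have := (Nat.card_eq_one_iff_unique.1 (hP.card_eq_or_dvd.resolve_right fun c =>
    h (c.trans (card_subgroup_dvd_card P)))).1
  infer_instance

theorem cy_of_proj [Finite K] (hl : l.Prime) {Γ : Type*} [Group Γ] [IsCyclic Γ] (φ : K →* Γ)
    (h : ¬ l ∣ Nat.card φ.ker) : Cy K l := by
  have := Fact.mk hl
  intro P hP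
  have h1 : P ⊓ φ.ker = ⊥ := card_eq_one.1 ((hP.to_le inf_le_left).card_eq_or_dvd.resolve_right
    fun c => h (c.trans (card_dvd_of_le inf_le_right)))
  refine isCyclic_of_injective (φ.comp P.subtype) ((injective_iff_map_eq_one _).2 fun x hx => ?_)
  exact Subtype.ext (mem_bot.1 (h1 ▸ mem_inf.2 ⟨x.2, hx⟩))

theorem exists_pair [Finite K] (hl : l.Prime) (h2 : l ≠ 2) (h : ¬ Cy K l) :
    ∃ x y : K, Commute x y ∧ orderOf x = l ∧ orderOf y = l ∧ y ∉ zpowers x := by
  have := Fact.mk hl
  obtain ⟨P, hP⟩ := not_forall.1 h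
  obtain ⟨hP, hc⟩ := Classical.not_imp.1 hP
  suffices k : ∃ x y : P, Commute x y ∧ orderOf x = l ∧ orderOf y = l ∧ y ∉ zpowers x by
    obtain ⟨x, y, h1, h3, h4, h5⟩ := k
    refine ⟨x, y, h1.map P.subtype, (orderOf_coe x).trans h3, (orderOf_coe y).trans h4, ?_⟩
    rintro ⟨n, hn⟩
    exact h5 ⟨n, Subtype.ext hn⟩
  obtain ⟨x, y, hx, hy, hxy⟩ : ∃ x y : P, orderOf x = l ∧ orderOf y = l ∧ y ∉ zpowers x := by
    by_contra! c
    exact (Grp.isCyclic_or_quaternion hP c).elim hc fun e => h2 e.1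
  have : Nontrivial P := ⟨y, 1, fun e => hxy (e ▸ one_mem _)⟩
  have := hP.center_nontrivial
  obtain ⟨z, hz⟩ := exists_prime_orderOf_dvd_card' l
    ((hP.to_subgroup (center P)).card_eq_or_dvd.resolve_left Finite.one_lt_card.ne')
  have hz' := (orderOf_coe z).trans hz
  have c : ∀ w : P, Commute (z : P) w := fun w => (mem_center_iff.1 z.2 w).symm
  by_cases h1 : x ∈ zpowers (z : P)
  · by_cases h3 : y ∈ zpowers (z : P)
    · obtain ⟨n, rfl⟩ := h1
      exact ⟨_, y, (c y).zpow_left n, hx, hy, hxy⟩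
    · exact ⟨z, y, c y, hz', hy, h3⟩
  · exact ⟨z, x, c x, hz', hx, h1⟩

theorem Big.of_inj {b : ℕ} [Finite K] (f : G →* K) (hf : Function.Injective f)
    (h : ∀ s : ℕ, s.Prime → s ≠ b → ¬ Cy K s → Adj G b s) : Big K b :=
  fun s hs hb hc => (h s hs hb hc).map f hf

theorem Big.congr {b : ℕ} (h : Big K b) (e : G ≃* K) : Big G b := by
  exact fun s hs hb hc => (h s hs hb fun k => hc (k.of_inj e.toMonoidHom e.injective)).map
    e.symm.toMonoidHom e.symm.injective

end Cfsg.Agent.ARS
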