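import Cfsg.Agent.NPQ.Api
import Cfsg.Agent.NPQ.Fld
import Cfsg.Agent.NPQ.Num

/-!
# S4185: definitions

`K` is a finite simple group of Lie type.  `Lf K` collects the facts on `K` and `Out K` that are used
for S4185 (`Adj`, `AdjZ`, `Fld`, `SmQ` are those of NPQ/Defs).
-/

set_option autoImplicit false

namespace Cfsg.Agent.ARS

open Cfsg Subgroup Cfsg.Agent.NPQ

/-- All `l`-subgroups are cyclic. -/
def Cy (K : Type*) [Group K] (l : ℕ) : Prop :=
  ∀ P : Subgroup K, IsPGroup l P → IsCyclic P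

/-- Some automorphism in the class `y` fixes an element of order `s`. -/
def FixO (K : Type*) [Group K] (y : Out K) (s : ℕ) : Prop :=
  ∃ θ : MulAut K, (θ : Out K) = y ∧ ∃ x : K, orderOf x = s ∧ θ x = x

/-- Every non-cyclic `2`-subgroup of `Out K` has a non-trivial class fixing an element of order `s`. -/
def Out2 (K : Type*) [Group K] (s : ℕ) : Prop :=
  ∀ Y : Subgroup (Out K), IsPGroup 2 Y → ¬ IsCyclic Y → ∃ y ∈ Y, y ≠ 1 ∧ FixO K y s

/-- The fact for the prime `2`. -/
def FB (K : Type*) [Group K] : Prop :=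
  ∀ s : ℕ, s.Prime → s ≠ 2 → ¬ Cy K s → Adj K 2 s ∨ Out2 K s

/-- The fact for odd primes dividing `|Out(K)'|`. -/
def FC (K : Type*) [Group K] : Prop :=
  ∀ r : ℕ, r.Prime → r ≠ 2 → ∀ y ∈ commutator (Out K), orderOf y = r →
    r ∣ Nat.card K ∧ ∀ s : ℕ, s.Prime → s ≠ r → ¬ Cy K s → Adj K r s ∨ FixO K y s

/-- Outer automorphisms of prime order prime to `|K|` are central in `Out K`. -/
def Cen (K : Type*) [Group K] : Prop :=
  ∀ s : ℕ, s.Prime → ¬ s ∣ Nat.card K → ∀ y : Out K, orderOf y = s → y ∈ center (Out K)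

/-- All facts. -/
structure Lf (K : Type*) [Group K] : Prop where
  fb : FB K
  fc : FC K
  cen : Cen K

/-- `b` is adjacent to every prime with non-cyclic Sylow subgroups. -/
def Big (K : Type*) [Group K] (b : ℕ) : Prop :=
  ∀ s : ℕ, s.Prime → s ≠ b → ¬ Cy K s → Adj K b s

variable {K : Type*} [Group K]

theorem Big.fb (h : Big K 2) : FB K := fun s hs h2 hc => .inl (h s hs h2 hc)

theorem out2_of_cy {s : ℕ} (h : Cy (Out K) 2) : Out2 K s := fun Y h1 h2 => absurd (h Y h1) h2

theorem fb_of_cy (h : Cy (Out K) 2) : FB K := fun _ _ _ _ => .inr (out2_of_cy h)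

theorem lf_of_comm (hc : IsMulCommutative (Out K)) (h : FB K) : Lf K := by
  refine ⟨h, fun r hr _ y hy ho => ?_, fun s _ _ y _ => mem_center_iff.2 fun g => hc.1.1 g y⟩
  have : commutator (Out K) = ⊥ := (commutator_eq_bot_iff _).2 hc
  rw [this, mem_bot] at hy
  rw [hy, orderOf_one] at ho
  exact absurd ho hr.one_lt.ne

theorem lf_of_cyclic (h : IsCyclic (Out K)) : Lf K :=
  lf_of_comm IsCyclic.isMulCommutative (fb_of_cy fun _ _ => inferInstance)

end Cfsg.Agent.ARS
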