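import Cfsg.Agent.ARS.CyA

/-!
S4185: a non-cyclic `l`-subgroup of `GL_n(q)`, linear bounds.  `e = ord_l(q)`.

`exists_pair` gives `E = ⟨x, y⟩ ≅ C_l × C_l` in `G` (`G` is finite as `ρ` is injective).
`le_of_inv`: if `Y^l = 1` acts non-trivially on a `Y`-invariant subspace `U` of dimension `d`, then the
restriction has order `l` in `GL(U) ≅ GL_d(F)`, so `l ∣ ∏_{i<d} (q^d - q^i)` (`Matrix.card_GL_field`), so
`l ∣ q^j - 1` for some `1 ≤ j ≤ d`, `e ∣ j` (`dvd_pow_sub_one_iff`, NPQ/Num).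
`exists_two`: there are `u, w ∈ E`, `orderOf u = l`, `w^l = 1`, with `ρ w` non-trivial on
`U = ker (ρ u - 1)`.  Otherwise for `u ∈ {y, x y^i (i < l)}` (all of order `l`) `E` fixes the columns of
`N_u = ∑_{k<l} ρ(u)^k` (as `ρ u * N_u = N_u`), i.e. `ρ x * N_u = N_u = ρ y * N_u`.  Now
`∑_{i<l} N_{x y^i} = ∑_k X^k ∑_i Y^(ik) = l + ∑_{0<k<l} X^k N_y` (for `0<k<l`, `i ↦ ik` permutes
`ZMod l`), so `l • 1` is fixed by left multiplication with `X`: `X = 1` (`(l : F) ≠ 0`), contradiction.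
(Or use a library lemma on coprime action of a non-cyclic group, S1324.)
`two_le_lin`: `ρ u` acts non-trivially on `R = range (ρ u - 1)` (if `(X-1)² = 0` then
`X^l = 1 + l (X-1)`, so `X = 1`); `dim U + dim R = n`.
-/

set_option autoImplicit false
set_option linter.unusedSectionVars false

namespace Cfsg.Agent.ARS

open Cfsg Cfsg.Agent.NPQ Matrix Module

variable {ι F G : Type*} [Fintype ι] [DecidableEq ι] [Field F] [Fintype F] [Group G] {l : ℕ}

theorem gl1_ne (hl : l.Prime) (hq : ¬ l ∣ Fintype.card F) : (l : F) ≠ 0 := by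
  intro c
  obtain ⟨p, hp, n, hp', e⟩ := FiniteField.card' F
  rw [CharP.cast_eq_zero_iff F p, Nat.prime_dvd_prime_iff_eq hp' hl] at c
  exact hq (e ▸ c ▸ dvd_pow_self p n.ne_zero)

/-- Count fixed points modulo `l`. -/
theorem gl1_le {V : Type*} [AddCommGroup V] [Module F V] [Finite V] (hl : l.Prime)
    (hq : ¬ l ∣ Fintype.card F) {L : End F V} (hL : L ^ l = 1) (h : L ≠ 1) :
    orderOf (Fintype.card F : ZMod l) ≤ finrank F V := by
  classical
  haveI := Fact.mk hl
  haveI := Fintype.ofFinite V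
  have h1 := Equiv.Perm.card_fixedPoints_modEq (f := MulAction.toEndHom (α := V) L) (p := l) (n := 1)
    (by rw [pow_one, ← map_pow, hL, map_one])
  have h2 : Nat.card (Function.fixedPoints (MulAction.toEndHom (α := V) L)) =
      Nat.card (LinearMap.ker (L - 1)) := Nat.card_congr (Equiv.subtypeEquivRight fun v => by
    rw [LinearMap.mem_ker, LinearMap.sub_apply, sub_eq_zero]; rfl)
  have h3 : finrank F (LinearMap.ker (L - 1)) < finrank F V :=
    Submodule.finrank_lt fun e => h (sub_eq_zero.1 (LinearMap.ker_eq_top.1 e))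
  rw [← Nat.card_eq_fintype_card, ← Nat.card_eq_fintype_card, h2, Module.natCard_eq_pow_finrank (K := F) (V := V),
    Module.natCard_eq_pow_finrank (K := F) (V := LinearMap.ker (L - 1)), Nat.card_eq_fintype_card, ← ZMod.natCast_eq_natCast_iff] at h1
  obtain ⟨j, hj⟩ := Nat.exists_eq_add_of_lt h3
  have q0 : (Fintype.card F : ZMod l) ≠ 0 := fun e => hq ((ZMod.natCast_eq_zero_iff _ _).1 e)
  rw [hj, add_assoc, pow_add] at h1
  push_cast at h1
  have := orderOf_le_of_pow_eq_one (Nat.succ_pos j) ((mul_eq_left₀ (pow_ne_zero _ q0)).1 h1)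
  omega

theorem le_of_inv (hl : l.Prime) (hq : ¬ l ∣ Fintype.card F) {Y : Matrix ι ι F} (hY : Y ^ l = 1)
    (U : Submodule F (ι → F)) (hU : ∀ v ∈ U, Y *ᵥ v ∈ U) (h : ∃ v ∈ U, Y *ᵥ v ≠ v) :
    orderOf (Fintype.card F : ZMod l) ≤ finrank F U := by
  have hU' : ∀ v ∈ U, Matrix.toLinAlgEquiv' Y v ∈ U := hU
  refine gl1_le hl hq (L := (Matrix.toLinAlgEquiv' Y).restrict hU') ?_ fun e => ?_
  · rw [Module.End.pow_restrict]
    ext1 v
    refine Subtype.ext ?_
    rw [LinearMap.coe_restrict_apply, ← map_pow, hY, map_one]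
    rfl
  · obtain ⟨v, hv, n⟩ := h
    exact n (congrArg Subtype.val (LinearMap.congr_fun e ⟨v, hv⟩))

theorem exists_two (hl : l.Prime) (h2 : l ≠ 2) (hq : ¬ l ∣ Fintype.card F) (ρ : G →* Matrix ι ι F)
    (hρ : Function.Injective ρ) (h : ¬ Cy G l) :
    ∃ u w : G, Commute u w ∧ orderOf u = l ∧ w ^ l = 1 ∧ ∃ v, ρ u *ᵥ v = v ∧ ρ w *ᵥ v ≠ v := by
  haveI : Finite G := Finite.of_injective ρ hρ
  haveI := Fact.mk hl
  obtain ⟨y, x, hc, oy, ox, n⟩ := exists_pair hl h2 h
  by_contra hn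
  push Not at hn
  have xl : x ^ l = 1 := by rw [← ox, pow_orderOf_eq_one]
  have yl : y ^ l = 1 := by rw [← oy, pow_orderOf_eq_one]
  have key : ∀ u, Commute u x → u ^ l = 1 → u ≠ 1 → (ρ x - 1) * ∑ k ∈ Finset.range l, ρ u ^ k = 0 := by
    intro u c ul u1
    have e : (ρ u - 1) * ∑ k ∈ Finset.range l, ρ u ^ k = 0 := by
      rw [mul_geom_sum, ← map_pow, ul, map_one, sub_self]
    rw [Matrix.ext_iff_mulVec] at e ⊢
    intro v
    have := e v
    rw [← mulVec_mulVec, sub_mulVec, one_mulVec, zero_mulVec, sub_eq_zero] at this ⊢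
    exact hn u x c (orderOf_eq_prime ul u1) xl _ this
  have h1 : (ρ x - 1) * ∑ i ∈ Finset.range l, ∑ k ∈ Finset.range l, ρ (x * y ^ i) ^ k = 0 := by
    rw [Finset.mul_sum]
    refine Finset.sum_eq_zero fun i _ => key _ ((Commute.refl x).mul_left (hc.pow_left i)) ?_ fun e => n ?_
    · rw [(hc.symm.pow_right i).mul_pow, xl, ← pow_mul, mul_comm, pow_mul, yl, one_pow, one_mul]
    · rw [eq_inv_of_mul_eq_one_left e]
      exact Subgroup.inv_mem _ (Subgroup.pow_mem _ (Subgroup.mem_zpowers y) i)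
  rw [Finset.sum_comm, Finset.mul_sum, Finset.sum_eq_single_of_mem 0 (Finset.mem_range.2 hl.pos)] at h1
  · simp only [pow_zero, Finset.sum_const, Finset.card_range, mul_smul_comm, mul_one] at h1
    rw [← Nat.cast_smul_eq_nsmul F, smul_eq_zero, sub_eq_zero, ← map_one ρ] at h1
    rw [hρ (h1.resolve_left (gl1_ne hl hq)), orderOf_one] at ox
    exact hl.one_lt.ne ox
  · intro k hk k0
    have e : ∀ i, ρ (x * y ^ i) ^ k = ρ x ^ k * ρ (y ^ k) ^ i := fun i => by
      rw [← map_pow, (hc.symm.pow_right i).mul_pow, ← pow_mul, mul_comm i, pow_mul, map_mul, map_pow,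
        map_pow]
    have c : Commute (ρ x - 1) (ρ x ^ k) :=
      ((Commute.refl _).sub_left (Commute.one_left _)).pow_right k
    simp only [e]
    rw [← Finset.mul_sum, ← mul_assoc, c.eq, mul_assoc, key _ (hc.pow_left k)
      (by rw [← pow_mul, mul_comm, pow_mul, yl, one_pow])
      (pow_ne_one_of_lt_orderOf k0 (oy ▸ Finset.mem_range.1 hk)), mul_zero]

theorem exists_fix (hl : l.Prime) (h2 : l ≠ 2) (hq : ¬ l ∣ Fintype.card F) (ρ : G →* Matrix ι ι F)
    (hρ : Function.Injective ρ) (h : ¬ Cy G l) : ∃ x : G, orderOf x = l ∧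
      orderOf (Fintype.card F : ZMod l) ≤ finrank F (LinearMap.ker (ρ x - 1).mulVecLin) := by
  obtain ⟨u, w, c, ou, wl, v, h1, h2⟩ := exists_two hl h2 hq ρ hρ h
  have m : ∀ v, v ∈ LinearMap.ker (ρ u - 1).mulVecLin ↔ ρ u *ᵥ v = v := fun v => by
    rw [LinearMap.mem_ker, mulVecLin_apply, sub_mulVec, one_mulVec, sub_eq_zero]
  refine ⟨u, ou, le_of_inv hl hq (Y := ρ w) (by rw [← map_pow, wl, map_one]) _ (fun v hv => ?_)
    ⟨v, (m v).2 h1, h2⟩⟩
  rw [m] at hv ⊢
  rw [mulVec_mulVec, ← map_mul, c.eq, map_mul, ← mulVec_mulVec, hv]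

theorem two_le_lin (hl : l.Prime) (h2 : l ≠ 2) (hq : ¬ l ∣ Fintype.card F) (ρ : G →* Matrix ι ι F)
    (hρ : Function.Injective ρ) (h : ¬ Cy G l) :
    2 * orderOf (Fintype.card F : ZMod l) ≤ Fintype.card ι := by
  obtain ⟨u, ou, h1⟩ := exists_fix hl h2 hq ρ hρ h
  have ul : ρ u ^ l = 1 := by rw [← map_pow, ← ou, pow_orderOf_eq_one, map_one]
  have h3 := le_of_inv hl hq ul (LinearMap.range (ρ u - 1).mulVecLin) (by
    rintro _ ⟨v, rfl⟩
    refine ⟨ρ u *ᵥ v, ?_⟩
    rw [mulVecLin_apply, mulVecLin_apply, mulVec_mulVec, mulVec_mulVec, sub_mul, mul_sub, one_mul, mul_one])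
    (by
      by_contra hn
      push Not at hn
      have e : ρ u * (ρ u - 1) = ρ u - 1 :=
        Matrix.ext_iff_mulVec.2 fun v => by rw [← mulVec_mulVec]; exact hn _ ⟨v, rfl⟩
      have e' : ∀ k : ℕ, ρ u ^ k * (ρ u - 1) = ρ u - 1 := fun k => by
        induction k with
        | zero => rw [pow_zero, one_mul]
        | succ k ih => rw [pow_succ, mul_assoc, e, ih]
      have := geom_sum_mul (ρ u) l
      rw [ul, sub_self, Finset.sum_mul] at this
      simp only [e', Finset.sum_const, Finset.card_range] at this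
      rw [← Nat.cast_smul_eq_nsmul F, smul_eq_zero, sub_eq_zero, ← map_one ρ] at this
      rw [hρ (this.resolve_left (gl1_ne hl hq)), orderOf_one] at ou
      exact hl.one_lt.ne ou)
  have h4 := LinearMap.finrank_range_add_finrank_ker (ρ u - 1).mulVecLin
  rw [Module.finrank_fintype_fun_eq_card] at h4
  omega

end Cfsg.Agent.ARS
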