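import Cfsg.Agent.ARS.GL1
import Cfsg.Agent.NPQ.GL
import Cfsg.Agent.Class.U.Basic

/-!
S4185: a non-cyclic `l`-subgroup of a classical group, bounds with a form.

Take `u, w` from `exists_two` (GL1), `X, Y` their matrices over `E = AlgebraicClosure F`.  For
`α^l = β^l = 1` let `P α β = ∑_{i,j<l} α⁻¹^i β⁻¹^j • X^i Y^j`; `X P = α • P`, `Y P = β • P`, and a vector
with `X v = α v`, `Y v = β v` has `P α β v = l² v`.  So `W = {(α, β) | P α β ≠ 0}` is the set of joint
eigenvalues (a non-zero column of `P` is a joint eigenvector).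
* `|W| ≤ n`: joint eigenvectors for different pairs are linearly independent (apply `P α β` to a
  relation: `P α β v' = 0` for a joint eigenvector `v'` of another pair, a geometric sum vanishes).
* `W` is closed under `(α, β) ↦ (α^q, β^q)` (map the entries by Frobenius, it fixes `X`, `Y`); under
  inversion if `Xᵀ J X = J`, `Yᵀ J Y = J` (`(P α β)ᵀ J = J P α⁻¹ β⁻¹`); in the unitary case (`|F| = q²`,
  `Xᵀ X^(q) = 1`) under `(α, β) ↦ (α^(-q), β^(-q))`.
* `W ∋ (1, β)` with `β ≠ 1`: for `v` as in `exists_two`, `v' = (Y-1) v ≠ 0` has `X v' = v'` and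
  `(1 + Y + .. + Y^(l-1)) v' = 0`; `∑_β P 1 β v' = l² v' ≠ 0` and `P 1 1 v' = 0` (or take an eigenvector of
  `Y` in the invariant subspace `ker (X-1) ⊓ ker (1 + .. + Y^(l-1))`).  Likewise `W ∋ (α, β')` with `α ≠ 1`
  (`X ≠ 1`).
* The orbits of `(1, β)` and `(α, β')` under the power maps are disjoint, each has at least
  `#{k ∈ ZMod l generated by the multipliers}` elements: `ord(q)` or `2 ord(q)` when `ord(q)` is odd
  (`-1 ∉ ⟨q⟩`), resp. `ord(-q)`.  `two_le_form`: `j = e` (`e` odd), `j = e/2` (`e` even).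
One generic lemma with a multiplier `k : ℤ` (closure under `·^k`) giving `2 * orderOf (k : ZMod l) ≤ n`
is enough: unitary `k = -q`; form: `k = q` if `e` is even and `k = -q` (order `2e`) if `e` is odd.
`cy_SL2`: `SL₂` preserves `!![0,1;-1,0]` and `4 j ≤ 2` is false.
-/

set_option autoImplicit false
set_option linter.unusedSectionVars false

namespace Cfsg.Agent.ARS

open Cfsg Cfsg.Agent.NPQ Matrix

variable {ι F G : Type*} [Fintype ι] [DecidableEq ι] [Field F] [Fintype F] [Group G] {l : ℕ}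

section
variable {E : Type*} [Field E] {X Y : Matrix ι ι E} {α β : E}

/-- joint eigenvalues -/
def JE (X Y : Matrix ι ι E) (α β : E) : Prop := ∃ v, v ≠ 0 ∧ X *ᵥ v = α • v ∧ Y *ᵥ v = β • v

theorem je_pow {v : ι → E} (h : X *ᵥ v = α • v) (n : ℕ) : X ^ n *ᵥ v = α ^ n • v := by
  induction n with
  | zero => simp
  | succ n ih => rw [pow_succ, ← mulVec_mulVec, h, mulVec_smul, ih, smul_smul, pow_succ']

theorem je_root {v : ι → E} (h : X *ᵥ v = α • v) (hv : v ≠ 0) (hX : X ^ l = 1) : α ^ l = 1 := by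
  have := je_pow h l
  rw [hX, one_mulVec] at this
  exact smul_left_injective E hv (this.symm.trans (one_smul _ _).symm)

theorem je_sum {v : ι → E} (h : X *ᵥ v = v) : (∑ i ∈ Finset.range l, X ^ i) *ᵥ v = (l : E) • v := by
  rw [sum_mulVec, Finset.sum_congr rfl fun i _ => je_pow (α := 1) (h.trans (one_smul _ _).symm) i]
  simp [Nat.cast_smul_eq_nsmul]

theorem je_geo (hX : X ^ l = 1) (hα : α ^ l = 1) (h0 : α ≠ 0) :
    (∑ i ∈ Finset.range l, (α⁻¹ • X) ^ i) * X = α • ∑ i ∈ Finset.range l, (α⁻¹ • X) ^ i := by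
  have := geom_sum_mul (α⁻¹ • X) l
  rw [smul_pow, hX, inv_pow, hα, inv_one, one_smul, sub_self, mul_sub, mul_one, sub_eq_zero,
    mul_smul_comm] at this
  exact (inv_smul_eq_iff₀ h0).1 this

theorem JE.transpose (hl : l ≠ 0) (hE : (l : E) ≠ 0) (hc : Commute X Y) (hX : X ^ l = 1)
    (hY : Y ^ l = 1) (h : JE X Y α β) : JE Xᵀ Yᵀ α β := by
  obtain ⟨v, hv, h1, h2⟩ := h
  have a1 := je_root h1 hv hX
  have b1 := je_root h2 hv hY
  have a0 : α ≠ 0 := ne_zero_pow hl (a1 ▸ one_ne_zero)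
  have b0 : β ≠ 0 := ne_zero_pow hl (b1 ▸ one_ne_zero)
  have a2 := je_geo hX a1 a0
  have b2 := je_geo hY b1 b0
  have a3 := je_sum (l := l) (X := α⁻¹ • X) (v := v) (by rw [smul_mulVec, h1, inv_smul_smul₀ a0])
  have b3 := je_sum (l := l) (X := β⁻¹ • Y) (v := v) (by rw [smul_mulVec, h2, inv_smul_smul₀ b0])
  have c : Commute X (∑ i ∈ Finset.range l, (β⁻¹ • Y) ^ i) :=
    Commute.sum_right _ _ _ fun i _ => (hc.smul_right _).pow_right i
  generalize ∑ i ∈ Finset.range l, (α⁻¹ • X) ^ i = A at *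
  generalize ∑ i ∈ Finset.range l, (β⁻¹ • Y) ^ i = B at *
  have h3 : ∃ u, (A * B)ᵀ *ᵥ u ≠ 0 := by
    by_contra! k
    have k1 : (A * B)ᵀ = 0 := toLin'.injective (LinearMap.ext fun u => by simpa using k u)
    have k2 : (A * B) *ᵥ v = 0 := by rw [transpose_eq_zero.1 k1, zero_mulVec]
    rw [← mulVec_mulVec, b3, mulVec_smul, a3, smul_smul] at k2
    exact hv ((smul_eq_zero.1 k2).resolve_left (mul_ne_zero hE hE))
  obtain ⟨u, hu⟩ := h3
  refine ⟨_, hu, ?_, ?_⟩
  · rw [mulVec_mulVec, ← transpose_mul, mul_assoc, ← c.eq, ← mul_assoc, a2, smul_mul_assoc,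
      transpose_smul, smul_mulVec]
  · rw [mulVec_mulVec, ← transpose_mul, mul_assoc, b2, mul_smul_comm, transpose_smul, smul_mulVec]

theorem JE.map (φ : E →+* E) (h : JE X Y α β) : JE (X.map φ) (Y.map φ) (φ α) (φ β) := by
  obtain ⟨v, hv, h1, h2⟩ := h
  refine ⟨φ ∘ v, fun e => hv (funext fun i => φ.injective ((congrFun e i).trans (map_zero φ).symm)),
    funext fun i => ?_, funext fun i => ?_⟩
  · rw [← φ.map_mulVec, h1]; simp
  · rw [← φ.map_mulVec, h2]; simp

/-- dual action -/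
theorem JE.inv {X' Y' J : Matrix ι ι E} (hJ : J.det ≠ 0) (hX : X * J * X' = J) (hY : Y * J * Y' = J)
    (h : JE X Y α β) : JE X' Y' α⁻¹ β⁻¹ := by
  obtain ⟨v, hv, h1, h2⟩ := h
  have hu := (isUnit_iff_isUnit_det J).2 hJ.isUnit
  obtain ⟨w, rfl⟩ := (mulVec_surjective_iff_isUnit.2 hu) v
  have k : ∀ {X X' : Matrix ι ι E} {α : E}, X * J * X' = J → X *ᵥ J *ᵥ w = α • J *ᵥ w →
      X' *ᵥ w = α⁻¹ • w := fun {X X' α} e h => by
    have d : (X * J).det ≠ 0 := fun c => hJ (by rw [← e, det_mul, c, zero_mul])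
    have a0 : α ≠ 0 := by
      rintro rfl
      rw [zero_smul, mulVec_mulVec] at h
      exact hv (by rw [eq_zero_of_mulVec_eq_zero d h, mulVec_zero])
    refine mulVec_injective_iff_isUnit.2 ((isUnit_iff_isUnit_det _).2 d.isUnit) ?_
    rw [mulVec_mulVec, e, mulVec_smul, ← mulVec_mulVec, h, inv_smul_smul₀ a0]
  exact ⟨w, fun e => hv (by rw [e, mulVec_zero]), k hX h1, k hY h2⟩

theorem je_card [Infinite E] (S : Finset (E × E)) (h : ∀ p ∈ S, JE X Y p.1 p.2) :
    S.card ≤ Fintype.card ι := by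
  classical
  obtain ⟨t, ht⟩ := Infinite.exists_notMem_finset
    ((S ×ˢ S).image fun p => (p.2.1 - p.1.1) / (p.1.2 - p.2.2))
  choose v h0 h1 h2 using fun p : S => h p p.2
  have := (Module.End.eigenvectors_linearIndependent' (toLin' (X + t • Y))
    (fun p : S => p.1.1 + t * p.1.2) (fun p p' e => ?_) v fun p =>
      ⟨Module.End.mem_eigenspace_iff.2 ?_, h0 p⟩).fintype_card_le_finrank
  · simpa using this
  · by_cases c : p.1.2 = p'.1.2
    · exact Subtype.ext (Prod.ext (by simpa [c] using e) c)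
    · refine (ht (Finset.mem_image.2 ⟨(p.1, p'.1), Finset.mem_product.2 ⟨p.2, p'.2⟩, ?_⟩)).elim
      rw [div_eq_iff (sub_ne_zero.2 c)]
      linear_combination -e
  · rw [toLin'_apply, add_mulVec, smul_mulVec, h1, h2, smul_smul, add_smul]

theorem je_ev [IsAlgClosed E] (U : Submodule E (ι → E)) (hU : ∀ v ∈ U, Y *ᵥ v ∈ U) {v : ι → E}
    (hv : v ∈ U) (h0 : v ≠ 0) : ∃ β : E, ∃ w ∈ U, w ≠ 0 ∧ Y *ᵥ w = β • w := by
  have : Nontrivial U := ⟨⟨v, hv⟩, 0, fun e => h0 (congrArg Subtype.val e)⟩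
  obtain ⟨β, hβ⟩ := Module.End.exists_eigenvalue ((toLin' Y).restrict (p := U) (q := U) hU)
  obtain ⟨w, h1, h2⟩ := hβ.exists_hasEigenvector
  exact ⟨β, w, w.2, fun e => h2 (Subtype.ext e),
    congrArg Subtype.val (Module.End.mem_eigenspace_iff.1 h1)⟩

theorem je_ne [IsAlgClosed E] (hE : (l : E) ≠ 0) (hY : Y ^ l = 1) (U : Submodule E (ι → E))
    (hU : ∀ v ∈ U, Y *ᵥ v ∈ U) {v : ι → E} (hv : v ∈ U) (h0 : Y *ᵥ v ≠ v) :
    ∃ β : E, β ≠ 1 ∧ ∃ w ∈ U, w ≠ 0 ∧ Y *ᵥ w = β • w := by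
  have c : Commute (∑ i ∈ Finset.range l, Y ^ i) Y :=
    Commute.sum_left _ _ _ fun i _ => (Commute.refl Y).pow_left i
  obtain ⟨β, w, ⟨h1, h2⟩, h3, h4⟩ := je_ev (Y := Y)
    (U ⊓ LinearMap.ker (toLin' (∑ i ∈ Finset.range l, Y ^ i))) (v := Y *ᵥ v - v)
    (fun u hu => ⟨hU u hu.1, by
      have := hu.2
      simp only [SetLike.mem_coe, LinearMap.mem_ker, toLin'_apply] at this ⊢
      rw [mulVec_mulVec, c.eq, ← mulVec_mulVec, this, mulVec_zero]⟩)
    ⟨U.sub_mem (hU v hv) hv, by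
      have := congrArg (· *ᵥ v) (geom_sum_mul Y l)
      simp only [hY, sub_self, zero_mulVec, ← mulVec_mulVec, sub_mulVec, one_mulVec] at this
      exact this⟩ (sub_ne_zero.2 h0)
  refine ⟨β, ?_, w, h1, h3, h4⟩
  rintro rfl
  have h5 : (∑ i ∈ Finset.range l, Y ^ i) *ᵥ w = 0 := h2
  rw [je_sum (h4.trans (one_smul _ _))] at h5
  exact h3 ((smul_eq_zero.1 h5).resolve_left hE)

theorem je_orb (hl : l.Prime) {k : ℕ} (hk : ¬ l ∣ k) (h1 : α ^ l = 1) (h2 : α ≠ 1) :
    (∀ i, α ^ k ^ i ≠ 1) ∧ Set.InjOn (fun i => α ^ k ^ i) (Finset.range (orderOf (k : ZMod l))) := by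
  have := Fact.mk hl
  have ho := orderOf_eq_prime h1 h2
  refine ⟨fun i c => hk (hl.dvd_of_dvd_pow (ho ▸ orderOf_dvd_of_pow_eq_one c)), fun i hi j hj e => ?_⟩
  refine pow_injOn_Iio_orderOf (by simpa using hi) (by simpa using hj) ?_
  have hf : IsOfFinOrder α := orderOf_pos_iff.1 (ho ▸ hl.pos)
  have e' := hf.pow_eq_pow_iff_modEq.1 e
  rw [ho, ← ZMod.natCast_eq_natCast_iff, Nat.cast_pow, Nat.cast_pow] at e'
  exact e'

theorem je_two [IsAlgClosed E] (hl : l.Prime) (hE : (l : E) ≠ 0) (hc : Commute X Y) (hX : X ^ l = 1)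
    (hY : Y ^ l = 1) (h1 : X ≠ 1) {v : ι → E} (h2 : X *ᵥ v = v) (h3 : Y *ᵥ v ≠ v) {k : ℕ}
    (hk : ¬ l ∣ k) (H : ∀ α β, JE X Y α β → JE X Y (α ^ k) (β ^ k)) :
    2 * orderOf (k : ZMod l) ≤ Fintype.card ι := by
  classical
  have H' : ∀ α β, JE X Y α β → ∀ i, JE X Y (α ^ k ^ i) (β ^ k ^ i) := fun α β h i => by
    induction i with
    | zero => simpa using h
    | succ i ih => simpa only [pow_succ, pow_mul] using H _ _ ih
  have inv : ∀ α : E, ∀ u ∈ Module.End.eigenspace (toLin' X) α,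
      Y *ᵥ u ∈ Module.End.eigenspace (toLin' X) α := fun α u hu => by
    rw [Module.End.mem_eigenspace_iff, toLin'_apply] at hu ⊢
    rw [mulVec_mulVec, hc.eq, ← mulVec_mulVec, hu, mulVec_smul]
  obtain ⟨β, b1, w, w1, w0, w2⟩ := je_ne hE hY _ (inv 1) (v := v)
    (Module.End.mem_eigenspace_iff.2 (h2.trans (one_smul _ _).symm)) h3
  obtain ⟨u, hu⟩ : ∃ u, X *ᵥ u ≠ u := by
    by_contra! c
    exact h1 (toLin'.injective (LinearMap.ext fun u => by simpa using c u))
  obtain ⟨α, a1, x, -, x0, x2⟩ := je_ne hE hX ⊤ (fun _ _ => trivial) trivial hu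
  obtain ⟨γ, y, y1, y0, y2⟩ := je_ev _ (inv α) (Module.End.mem_eigenspace_iff.2 x2) x0
  have j1 := H' 1 β ⟨w, w0, Module.End.mem_eigenspace_iff.1 w1, w2⟩
  have j2 := H' α γ ⟨y, y0, Module.End.mem_eigenspace_iff.1 y1, y2⟩
  obtain ⟨-, o1⟩ := je_orb hl hk (je_root w2 w0 hY) b1
  obtain ⟨o2, o3⟩ := je_orb hl hk (je_root x2 x0 hX) a1
  have := je_card (X := X) (Y := Y)
    ((Finset.range (orderOf (k : ZMod l))).image (fun i => ((1 : E) ^ k ^ i, β ^ k ^ i)) ∪
      (Finset.range (orderOf (k : ZMod l))).image fun i => (α ^ k ^ i, γ ^ k ^ i)) fun p hp => by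
    rcases Finset.mem_union.1 hp with hp | hp <;> obtain ⟨i, -, rfl⟩ := Finset.mem_image.1 hp
    exacts [j1 i, j2 i]
  rwa [Finset.card_union_of_disjoint, Finset.card_image_of_injOn, Finset.card_image_of_injOn,
    Finset.card_range, ← two_mul] at this
  · exact fun i hi j hj e => o3 hi hj (congrArg Prod.fst e)
  · exact fun i hi j hj e => o1 hi hj (congrArg Prod.snd e)
  · rw [Finset.disjoint_left]
    intro p hp hp'
    obtain ⟨i, -, rfl⟩ := Finset.mem_image.1 hp
    obtain ⟨j, -, e⟩ := Finset.mem_image.1 hp'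
    exact o2 j ((congrArg Prod.fst e).trans (one_pow _))

theorem je_inv_pow (hl : l ≠ 0) (h : α ^ l = 1) (q : ℕ) : α⁻¹ ^ q = α ^ ((l - 1) * q) := by
  rw [pow_mul]
  congr 1
  exact inv_eq_of_mul_eq_one_right (by rw [← pow_succ', Nat.sub_add_cancel (Nat.pos_of_ne_zero hl), h])

end

theorem je_neg (hl : l ≠ 0) (q : ℕ) : (((l - 1) * q : ℕ) : ZMod l) = -q := by
  rw [Nat.cast_mul, Nat.cast_pred (Nat.pos_of_ne_zero hl), ZMod.natCast_self, zero_sub, neg_one_mul]

theorem je_ndvd (hl : l.Prime) {q : ℕ} (hq : ¬ l ∣ q) : ¬ l ∣ (l - 1) * q := fun h =>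
  (hl.dvd_mul.1 h).elim (Nat.not_dvd_of_pos_of_lt (by have := hl.two_le; omega)
    (by have := hl.two_le; omega)) hq

theorem je_gen (hl : l.Prime) (h2 : l ≠ 2) (hq : ¬ l ∣ Fintype.card F) (ρ : G →* Matrix ι ι F)
    (hρ : Function.Injective ρ) (h : ¬ Cy G l) {k : ℕ} (hk : ¬ l ∣ k)
    (H : ∀ (u w : G) (α β : AlgebraicClosure F), α ^ l = 1 → β ^ l = 1 →
      JE ((ρ u).map (algebraMap F _)) ((ρ w).map (algebraMap F _)) α β →
      JE ((ρ u).map (algebraMap F _))ᵀ ((ρ w).map (algebraMap F _))ᵀ α β →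
      JE ((ρ u).map (algebraMap F _)) ((ρ w).map (algebraMap F _)) (α ^ k) (β ^ k)) :
    2 * orderOf (k : ZMod l) ≤ Fintype.card ι := by
  obtain ⟨u, w, hc, hu, hw, v, v1, v2⟩ := exists_two hl h2 hq ρ hρ h
  let σ : G →* Matrix ι ι (AlgebraicClosure F) :=
    ((algebraMap F (AlgebraicClosure F)).mapMatrix : Matrix ι ι F →+* _).toMonoidHom.comp ρ
  have hσ : Function.Injective σ :=
    (Matrix.map_injective (algebraMap F (AlgebraicClosure F)).injective).comp hρ
  have hE : (l : AlgebraicClosure F) ≠ 0 := by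
    rw [← map_natCast (algebraMap F (AlgebraicClosure F)), map_ne_zero]
    intro c
    obtain ⟨p, hp, n, hp', e⟩ := FiniteField.card' F
    rw [CharP.cast_eq_zero_iff F p, Nat.prime_dvd_prime_iff_eq hp' hl] at c
    exact hq (e ▸ c ▸ dvd_pow_self p n.ne_zero)
  have hX : σ u ^ l = 1 := by rw [← map_pow, ← hu, pow_orderOf_eq_one, map_one]
  have hY : σ w ^ l = 1 := by rw [← map_pow, hw, map_one]
  have m : ∀ g, σ g *ᵥ (algebraMap F _ ∘ v) = algebraMap F _ ∘ (ρ g *ᵥ v) := fun g =>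
    funext fun i => ((algebraMap F _).map_mulVec _ _ i).symm
  refine je_two hl hE (hc.map σ) hX hY (fun e => ?_) (v := algebraMap F _ ∘ v) (by rw [m, v1])
    (fun e => v2 ?_) hk fun α β j => ?_
  · rw [hσ (e.trans (map_one σ).symm), orderOf_one] at hu
    exact hl.one_lt.ne hu
  · rw [m] at e
    exact funext fun i => (algebraMap F _).injective (congrFun e i)
  · obtain ⟨x, x0, x1, x2⟩ := id j
    exact H u w α β (je_root x1 x0 hX) (je_root x2 x0 hY) j
      (j.transpose hl.ne_zero hE (hc.map σ) hX hY)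

theorem je_frob (X : Matrix ι ι F) : (X.map (algebraMap F (AlgebraicClosure F))).map
    (FiniteField.frobeniusAlgHom F (AlgebraicClosure F)).toRingHom = X.map (algebraMap F _) := by
  ext i j
  exact (FiniteField.frobeniusAlgHom F (AlgebraicClosure F)).commutes _

theorem two_le_form (hl : l.Prime) (h2 : l ≠ 2) (hq : ¬ l ∣ Fintype.card F) (ρ : G →* Matrix ι ι F)
    (hρ : Function.Injective ρ) {J : Matrix ι ι F} (hJ : J.det ≠ 0)
    (hG : ∀ g, (ρ g)ᵀ * J * ρ g = J) (h : ¬ Cy G l) :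
    ∃ j, 1 ≤ j ∧ 4 * j ≤ Fintype.card ι ∧ l ∣ Fintype.card F ^ (2 * j) - 1 := by
  have := Fact.mk hl
  have fr : ∀ {X Y : Matrix ι ι F} {α β : AlgebraicClosure F},
      JE (X.map (algebraMap F _)) (Y.map (algebraMap F _)) α β →
      JE (X.map (algebraMap F _)) (Y.map (algebraMap F _)) (α ^ Fintype.card F) (β ^ Fintype.card F) :=
    fun j => by
      have := j.map (FiniteField.frobeniusAlgHom F (AlgebraicClosure F)).toRingHom
      rwa [je_frob, je_frob] at this
  have hJ' : (J.map (algebraMap F (AlgebraicClosure F))).det ≠ 0 := by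
    rw [← RingHom.mapMatrix_apply, ← RingHom.map_det, map_ne_zero]; exact hJ
  have hG' : ∀ g, ((ρ g).map (algebraMap F (AlgebraicClosure F)))ᵀ * J.map (algebraMap F _) *
      (ρ g).map (algebraMap F _) = J.map (algebraMap F _) := fun g => by
    simpa only [Matrix.map_mul, transpose_map] using
      congrArg (·.map (algebraMap F (AlgebraicClosure F))) (hG g)
  have a1 := je_gen hl h2 hq ρ hρ h hq fun u w α β _ _ j _ => fr j
  have a2 := je_gen hl h2 hq ρ hρ h (je_ndvd hl hq) fun u w α β a b _ j => by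
    rw [← je_inv_pow hl.ne_zero a, ← je_inv_pow hl.ne_zero b]
    exact fr (j.inv hJ' (hG' u) (hG' w))
  have b1 := one_le_ord hl hq
  have b2 := one_le_ord hl (je_ndvd hl hq)
  rw [je_neg hl.ne_zero] at a2 b2
  have c1 := pow_orderOf_eq_one (Fintype.card F : ZMod l)
  have c2 := pow_orderOf_eq_one (-(Fintype.card F : ZMod l))
  have key : ∀ e, 1 ≤ e → 2 * e ≤ Fintype.card ι → Even e → (Fintype.card F : ZMod l) ^ e = 1 →
      ∃ j, 1 ≤ j ∧ 4 * j ≤ Fintype.card ι ∧ l ∣ Fintype.card F ^ (2 * j) - 1 := by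
    rintro _ h1 h2 ⟨j, rfl⟩ h3
    refine ⟨j, by omega, by omega, (dvd_pow_sub_one_iff Fintype.card_pos).2 ?_⟩
    rw [two_mul]
    exact orderOf_dvd_of_pow_eq_one h3
  generalize orderOf (-(Fintype.card F : ZMod l)) = d at *
  generalize orderOf (Fintype.card F : ZMod l) = e at *
  rcases Nat.even_or_odd e with he | he
  · exact key e b1 a1 he c1
  rcases Nat.even_or_odd d with hd | hd
  · exact key d b2 a2 hd (by rwa [hd.neg_pow] at c2)
  · have c3 : (-(Fintype.card F : ZMod l)) ^ (d * e) = 1 := by rw [pow_mul, c2, one_pow]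
    rw [(hd.mul he).neg_pow, mul_comm, pow_mul, c1, one_pow, neg_eq_iff_add_eq_zero,
      one_add_one_eq_two] at c3
    exact absurd ((Nat.prime_dvd_prime_iff_eq hl Nat.prime_two).1
      ((ZMod.natCast_eq_zero_iff 2 l).1 (by exact_mod_cast c3))) h2

theorem two_le_SU {n q : ℕ} (hF : Fintype.card F = q ^ 2) (hl : l.Prime) (h2 : l ≠ 2) (hq : ¬ l ∣ q)
    (h : ¬ Cy (SU n F q) l) : ∃ i, 1 ≤ i ∧ 2 * i ≤ n ∧ (-(q : ZMod l)) ^ i = 1 := by
  have := Class.U.UF.of_card hF
  obtain ⟨p, k, hp, _, e, -⟩ := Class.U.exists_prime_pow F q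
  have := Fact.mk hp
  let φ := iterateFrobenius (AlgebraicClosure F) p k
  have hφ : ∀ t, φ t = t ^ q := fun t => by rw [e]; exact iterateFrobenius_def p k t
  have m1 : ∀ X : Matrix (Fin n) (Fin n) F, (X.map (algebraMap F (AlgebraicClosure F))).map φ =
      (X.map (Class.U.conj F q)).map (algebraMap F _) := fun X => by
    ext i j
    simp only [map_apply, hφ, Class.U.conj_apply, map_pow]
  have m2 : ∀ X : Matrix (Fin n) (Fin n) F, ((X.map (algebraMap F (AlgebraicClosure F))).map φ).map φ =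
      X.map (algebraMap F _) := fun X => by
    rw [m1, m1]
    ext i j
    simp only [map_apply, Class.U.conj_conj]
  let ρ : SU n F q →* Matrix (Fin n) (Fin n) F := SpecialLinearGroup.coeMonoidHom.comp (SU n F q).subtype
  have hG : ∀ g, ((ρ g).map (algebraMap F (AlgebraicClosure F)))ᵀ * 1 *
      ((ρ g).map (algebraMap F _)).map φ = 1 := fun g => by
    have := congrArg (·.map (algebraMap F (AlgebraicClosure F))) (Class.U.pres_iff.1 (Class.U.mem_SU_iff.1 g.2))
    simp only [Matrix.map_mul, transpose_map, Matrix.map_one _ (map_zero _) (map_one _)] at this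
    rw [mul_one, m1]
    exact this
  have a := je_gen hl h2 (fun c => hq (hl.dvd_of_dvd_pow (hF ▸ c))) ρ
    (Subtype.val_injective.comp Subtype.val_injective) h (je_ndvd hl hq) fun u w α β a b _ j => by
      have := (j.inv (by simp) (hG u) (hG w)).map φ
      rwa [m2, m2, hφ, hφ, je_inv_pow hl.ne_zero a, je_inv_pow hl.ne_zero b] at this
  have b := one_le_ord hl (je_ndvd hl hq)
  rw [je_neg hl.ne_zero] at a b
  exact ⟨_, b, by simpa using a, pow_orderOf_eq_one _⟩

theorem cy_SL2 (hl : l.Prime) (h2 : l ≠ 2) (hq : ¬ l ∣ Fintype.card F) :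
    Cy (SpecialLinearGroup (Fin 2) F) l := by
  by_contra h
  obtain ⟨j, h1, h3, -⟩ := two_le_form hl h2 hq SpecialLinearGroup.coeMonoidHom Subtype.val_injective
    (J := !![0, 1; -1, 0]) (by simp) (fun g => by
      have := g.2
      rw [det_fin_two] at this
      change g.1ᵀ * _ * g.1 = _
      ext i j
      fin_cases i <;> fin_cases j <;> simp [mul_apply, Fin.sum_univ_two] <;>
        first | ring1 | linear_combination this | linear_combination -this) h
  rw [Fintype.card_fin] at h3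
  omega

end Cfsg.Agent.ARS
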