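import Cfsg.Agent.ARS.Defs
import Cfsg.Agent.Class.Orth.OmegaCrit
import Cfsg.Agent.KSG.AutOrth4

/-!
S4185: an element `x ∈ Ω(Q)` of prime order `s ∤ 2q` with fixed space `U` of dimension `≥ 3` commutes
with non-central elements of orders `2` and `3` of `Ω(Q)`.

`U = ker (x - 1)` is non-degenerate (`NDon`): `V = U + R`, `R = range (x-1)` (as `s ≠ 0` in `F`:
`s v = (1 + x + ..) v + ∑ (v - x^i v)`), `U ⊥ R`.  For non-singular `a, c ∈ U` with `Q a = Q c`,
`t = refl a * refl c` lies in the commutator subgroup (`list_refl_mem_commutator_iff`, `ReflGen` holds for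
`5 ≤ dim`: `ca find ReflGen`), commutes with `x` (`x` fixes `a`, `c`: `g refl a g⁻¹ = refl (g a)`) and fixes
`U^⊥ ∋ R ≠ 0` pointwise.  Central elements of `Ω` are scalars (`ca find "center.*commutator \(OG"`,
KSG/AutOrth4), so an element `≠ 1` with a fixed vector `≠ 0` (such as `x`, `t`) is not central.
* `b = 3`: `U` has a hyperbolic pair `e, f` (dimension `≥ 3`, finite field) and a vector `w ⊥ e, f` in
  `U` with `μ = Q w ≠ 0`; `a = e + μ f`, `c = w - μ f`: `Q a = Q c = μ`, `polar a c = -μ`, so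
  `(refl a * refl c)^3 = 1` (braid relation) and `t ≠ 1` (`t e`, or `refl a ≠ refl c`).
* `b = 2`, `q` odd: the complement `W` of `⟨w⟩` in `⟨e, f, w⟩` is the hyperbolic plane, which
  represents `μ`: `a = e + μ f`, `c = w`: `Q a = Q c = μ`, `polar a c = 0`.  The same vectors work for `q`
  even.  `t² = 1` (commuting reflections), `t ≠ 1` (`t f = refl a f ≠ f`).
-/

set_option autoImplicit false
set_option linter.unusedSectionVars false

namespace Cfsg.Agent.ARS

open Cfsg Cfsg.Agent.NPQ Cfsg.Agent.Class.Orth Cfsg.Agent.KSG Module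

variable {F V : Type} [Field F] [Fintype F] [AddCommGroup V] [Module F V] [FiniteDimensional F V]
  {Q : QuadraticForm F V} {G : Type} [Group G]

open QuadraticMap in
theorem oi_ndon (hQ : ND Q) {g : OG Q} {s : ℕ} (hs : (s : F) ≠ 0) (hg : g ^ s = 1) :
    NDon Q (LinearMap.ker (g.1.toLinearMap - LinearMap.id)) := by
  intro u hu h
  have hu' : g.1 u = u := by simpa [sub_eq_zero] using hu
  have hi : ∀ i : ℕ, (g ^ i).1 u = u := by
    intro i
    induction i with
    | zero => rw [pow_zero, OG.one_apply]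
    | succ i ih => rw [pow_succ, OG.mul_apply, hu', ih]
  refine hQ u fun v => ?_
  have hT : (∑ i ∈ Finset.range s, (g ^ i).1 v) ∈
      LinearMap.ker (g.1.toLinearMap - LinearMap.id) := by
    have h1 : g.1 (∑ i ∈ Finset.range s, (g ^ i).1 v) = ∑ i ∈ Finset.range s, (g ^ (i + 1)).1 v := by
      rw [map_sum]
      exact Finset.sum_congr rfl fun i _ => by rw [pow_succ', OG.mul_apply]
    have h2 := Finset.sum_range_succ (fun i => (g ^ i).1 v) s
    have h3 := Finset.sum_range_succ' (fun i => (g ^ i).1 v) s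
    rw [h3, hg, pow_zero] at h2
    have h4 := add_right_cancel h2
    rw [LinearMap.mem_ker, LinearMap.sub_apply, LinearMap.id_apply, sub_eq_zero]
    exact h1.trans h4
  have h1 := h _ hT
  have h2 : polar Q u (∑ i ∈ Finset.range s, (g ^ i).1 v) = ∑ _i ∈ Finset.range s, polar Q u v := by
    rw [← polarBilin_apply_apply, map_sum]
    refine Finset.sum_congr rfl fun i _ => ?_
    rw [polarBilin_apply_apply]
    conv_lhs => rw [← hi i]
    exact OG.map_polar _ _ _
  rw [h2, Finset.sum_const, Finset.card_range, nsmul_eq_mul] at h1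
  exact (mul_eq_zero.1 h1).resolve_left hs

theorem oi_not_center (D : OmegaRep Q G) (hQ : ND Q) (h5 : 5 ≤ finrank F V) {z : G}
    (h1 : D.ρ z ≠ 1) {v : V} (hv : v ≠ 0) (hz : (D.ρ z).1 v = v) : z ∉ Subgroup.center G := by
  rw [D.mem_center_iff hQ h5]
  rintro (h | h)
  · exact h1 h
  · rw [h, negOne_apply] at hz
    have h2 : (2 : F) • v = 0 := by
      rw [two_smul]; nth_rewrite 1 [← hz]; exact neg_add_cancel v
    have h3 : (2 : F) = 0 := (smul_eq_zero.1 h2).resolve_right hv
    refine h1 (h.trans (OG.ext fun w => ?_))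
    rw [negOne_apply, OG.one_apply, neg_eq_iff_add_eq_zero, ← two_smul F, h3, zero_smul]

open QuadraticMap in
theorem oi_sq {a c : V} (h : polar Q a c = 0) : (refl Q a * refl Q c) ^ 2 = 1 := by
  have h1 := conj_refl (refl Q c) a
  rw [refl_apply_of_polar_eq_zero h, refl_inv] at h1
  have h3 : (refl Q a * refl Q c) ^ 2 = refl Q a * (refl Q c * refl Q a * refl Q c) := by
    simp only [pow_succ, pow_zero, one_mul, mul_assoc]
  rw [h3, h1, refl_mul_self]

open QuadraticMap in
theorem oi_cube {a c : V} {μ : F} (hμ : μ ≠ 0) (ha : Q a = μ) (hc : Q c = μ)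
    (h : polar Q a c = -μ) : (refl Q a * refl Q c) ^ 3 = 1 := by
  have h1 := conj_refl (refl Q c) a
  have h2 := conj_refl (refl Q a) c
  rw [refl_apply, refl_inv, hc, h, mul_neg, inv_mul_cancel₀ hμ, neg_smul, one_smul,
    sub_neg_eq_add] at h1
  rw [refl_apply, refl_inv, ha, polar_comm, h, mul_neg, inv_mul_cancel₀ hμ, neg_smul, one_smul,
    sub_neg_eq_add, add_comm] at h2
  have h3 : (refl Q a * refl Q c) ^ 3 =
      (refl Q a * refl Q c * refl Q a) * (refl Q c * refl Q a * refl Q c) := by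
    simp only [pow_succ, pow_zero, one_mul, mul_assoc]
  rw [h3, h1, h2, refl_mul_self]

theorem adjZ_orth (D : OmegaRep Q G) (hQ : ND Q) (h5 : 5 ≤ finrank F V) {s b : ℕ} (hs : s.Prime)
    (hq : ¬ s ∣ Fintype.card F) (hb : b = 2 ∨ b = 3) {x : G} (hx : orderOf x = s)
    (h3 : 3 ≤ finrank F (LinearMap.ker ((D.ρ x).1.toLinearMap - LinearMap.id))) : AdjZ G b s := by
  classical
  have := Fact.mk hs
  have hsF : (s : F) ≠ 0 := by
    intro h
    rcases (Nat.dvd_prime hs).1 ((ringChar.spec F s).1 h) with h1 | h1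
    · exact CharP.ringChar_ne_one h1
    · exact hq ((prime_dvd_char_iff_dvd_card s).1 (h1 ▸ dvd_rfl))
  have hxs : x ^ s = 1 := by rw [← hx, pow_orderOf_eq_one]
  have hgs : D.ρ x ^ s = 1 := by rw [← map_pow, hxs, map_one]
  have hg1 : D.ρ x ≠ 1 := by
    intro h
    have : x = 1 := D.inj (h.trans (map_one _).symm)
    rw [this, orderOf_one] at hx
    exact hs.one_lt.ne hx
  set U := LinearMap.ker ((D.ρ x).1.toLinearMap - LinearMap.id) with hU
  have hmem : ∀ u, u ∈ U → (D.ρ x).1 u = u := fun u hu => by simpa [hU, sub_eq_zero] using hu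
  have hN : NDon Q U := oi_ndon hQ hsF hgs
  obtain ⟨e, heU, he0, he⟩ := exists_singular_mem Q U h3
  obtain ⟨f, hfU, hef⟩ := hN.exists_isHyp heU he0 he
  have hN' := hN.inf_perp2 heU hfU hef
  have hd := hef.finrank_inf_perp2 heU hfU
  obtain ⟨w₀, hw₀, hw₀0⟩ : ∃ w₀ ∈ U ⊓ perp2 Q e f, w₀ ≠ 0 := by
    refine Submodule.exists_mem_ne_zero_of_ne_bot fun h => ?_
    rw [h, finrank_bot] at hd
    omega
  obtain ⟨w, ⟨hwU, hw⟩, hμ⟩ := hN'.exists_Q_ne_zero hw₀ hw₀0
  obtain ⟨hew, hfw⟩ := mem_perp2.1 hw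
  set μ := Q w with hμd
  have haU : e + μ • f ∈ U := U.add_mem heU (U.smul_mem _ hfU)
  have hQa : Q (e + μ • f) = μ := by
    have := hef.Q_comb 1 μ
    rwa [one_smul, one_mul] at this
  have hfa : QuadraticMap.polar Q f (e + μ • f) = 1 := by
    rw [QuadraticMap.polar_add_right, polar_smul_right', hef.pol', hef.ff, mul_zero, add_zero]
  obtain ⟨v, hv⟩ : ∃ v, (D.ρ x).1 v ≠ v := by
    by_contra! h
    exact hg1 (OG.ext fun v => (h v).trans (OG.one_apply v).symm)
  have hr : ∀ u ∈ U, QuadraticMap.polar Q ((D.ρ x).1 v - v) u = 0 := by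
    intro u hu
    rw [QuadraticMap.polar_sub_left, sub_eq_zero]
    conv_lhs => rw [← hmem u hu]
    exact OG.map_polar _ _ _
  have key : ∀ c ∈ U, Q c = μ → QuadraticMap.polar Q f c = 0 →
      (refl Q (e + μ • f) * refl Q c) ^ b = 1 → AdjZ G b s := by
    intro c hcU hQc hfc hpow
    have hcm : refl Q (e + μ • f) * refl Q c ∈ commutator (OG Q) := by
      have := (list_refl_mem_commutator_iff hQ (hQ.reflGen (.inr (by omega))) [e + μ • f, c]
        (by simp [hQa, hQc, hμ])).2 ⟨by simp, ⟨μ, by simp [hQa, hQc]⟩⟩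
      simpa using this
    obtain ⟨t, ht⟩ := D.exists_eq hcm
    refine ⟨t, x, ?_, ⟨1, ?_⟩, ⟨1, by rw [pow_one, hxs]⟩, ?_,
      oi_not_center D hQ h5 hg1 he0 (hmem e heU)⟩
    · refine D.inj ?_
      rw [map_mul, map_mul, ht]
      have h1 := conj_refl (D.ρ x) (e + μ • f)
      have h2 := conj_refl (D.ρ x) c
      rw [hmem _ haU, mul_inv_eq_iff_eq_mul] at h1
      rw [hmem _ hcU, mul_inv_eq_iff_eq_mul] at h2
      rw [mul_assoc, ← h2, ← mul_assoc, ← h1, mul_assoc]
    · refine D.inj ?_
      rw [pow_one, map_pow, ht, hpow, map_one]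
    · refine oi_not_center D hQ h5 ?_ (sub_ne_zero.2 hv) ?_
      · intro h
        have h1 := congrArg (fun k : OG Q => k.1 f) (ht.symm.trans h)
        simp only [OG.mul_apply, OG.one_apply] at h1
        rw [refl_apply_of_polar_eq_zero hfc, refl_apply, hQa, hfa, mul_one, sub_eq_self,
          smul_eq_zero] at h1
        rcases h1 with h1 | h1
        · exact inv_ne_zero hμ h1
        · rw [h1, map_zero] at hQa
          exact hμ hQa.symm
      · rw [ht, OG.mul_apply, refl_apply_of_polar_eq_zero (hr c hcU),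
          refl_apply_of_polar_eq_zero (hr _ haU)]
  rcases hb with rfl | rfl
  · refine key w hwU rfl hfw (oi_sq ?_)
    rw [QuadraticMap.polar_add_left, polar_smul_left', hew, hfw, mul_zero, add_zero]
  · have hQc : Q (w - μ • f) = μ := by
      rw [Q_sub, Q_smul, hef.right, polar_smul_right', QuadraticMap.polar_comm, hfw]
      simp [hμd]
    refine key (w - μ • f) (U.sub_mem hwU (U.smul_mem _ hfU)) hQc ?_ (oi_cube hμ hQa hQc ?_)
    · rw [QuadraticMap.polar_sub_right, polar_smul_right', hfw, hef.ff, mul_zero, sub_zero]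
    · rw [QuadraticMap.polar_sub_right, QuadraticMap.polar_add_left, QuadraticMap.polar_add_left,
        polar_smul_left', polar_smul_left', polar_smul_right', polar_smul_right', hew, hfw, hef.ff,
        hef.pol]
      ring

end Cfsg.Agent.ARS
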