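import Cfsg.Agent.ARS.Defs

/-!
S4185: criteria for `Out2`, `FC`, `Cen`, `Lf`.

* `FixO.conj`: replace `θ` by `β θ β⁻¹` and `x` by `β x` for a lift `β` of `g`.
* `out2_of_sub`: `Y` acts on `Out K ⧸ Φ` by left multiplication.  `|Y| = 2^k`, `k ≥ 2` (groups of order
  `1`, `2` are cyclic).  If all stabilisers were trivial then `|Y| ∣ index` (e.g.
  `MulAction.card_dvd_of_free`-type lemma, or: Sylow / `IsPGroup` orbits all have size `|Y|`), so
  `4 ∣ index`.  Otherwise `1 ≠ y ∈ Y`, `g⁻¹ y g ∈ Φ`; replace `y` by its power of order `2`; `FixO.conj`.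
* `out2_of_field`: `Φ` = range of `mk' ∘ fld`, of order `|Γ|`; cf. `fld_of_field` (NPQ/Fld).
* `fixO_of_fld`: lift `y` to `h` (`h ∉ Inn`, `h^l ∈ Inn`), `c x c⁻¹ = h x`, `θ = conj c⁻¹ * h`.
* `cen_of_cyc`: `D` is normal (contains the commutator subgroup).  `s > d` (else `s ∣ |K|`), so
  `s ∤ |D|`, `s ∤ |Aut D| = φ(|D|) ≤ d` (`IsCyclic.card_mulAut`), so `y` centralizes `D`.  For `g`,
  `c = g y g⁻¹ y⁻¹ ∈ D` commutes with `y`, `(c y)^s = g y^s g⁻¹ = 1`, so `c^s = 1`, `c = 1`.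
* `cen_of_prod`: `(e y).1 ^ s = 1` and `s ∤ |A|` give `(e y).1 = 1`.
* `lf_of_prod`: for `y` in the commutator subgroup `(e y).2 = 1`, so `r ∣ |A| ∣ 24`, `r = 3`.
* `comm_of_proj`: the kernel (normal of order `≤ 2`) is central; `commutative_of_cyclic_center_quotient`.
* `Lf.congr`: `KSG.outCongr e`, `MulAut.congr`; cf. `Fld.congr` (NPQ/Api).
-/

set_option autoImplicit false
set_option linter.unusedSectionVars false

namespace Cfsg.Agent.ARS

open Cfsg Cfsg.Agent.NPQ Subgroup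
open scoped commutatorElement

variable {K G : Type*} [Group K] [Group G] {l s a m d : ℕ}

theorem FixO.conj {y : Out K} (h : FixO K y s) (g : Out K) : FixO K (g * y * g⁻¹) s := by
  obtain ⟨θ, rfl, x, h1, h2⟩ := h
  obtain ⟨β, rfl⟩ := QuotientGroup.mk_surjective g
  exact ⟨β * θ * β⁻¹, rfl, β x, by rw [MulEquiv.orderOf_eq, h1], by simp [h2]⟩

theorem out2_of_sub [Finite K] (Φ : Subgroup (Out K)) (h4 : ¬ 4 ∣ Φ.index)
    (h : ∀ φ ∈ Φ, orderOf φ = 2 → FixO K φ s) : Out2 K s := by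
  intro Y hY hc
  by_contra hn
  push Not at hn
  have : Fact (Nat.Prime 2) := ⟨Nat.prime_two⟩
  have free : ∀ b : Out K ⧸ Φ, MulAction.stabilizer Y b = ⊥ := by
    intro b
    obtain ⟨g, rfl⟩ := QuotientGroup.mk_surjective b
    by_contra hb
    have : Nontrivial (MulAction.stabilizer Y (g : Out K ⧸ Φ)) :=
      (Subgroup.nontrivial_iff_ne_bot _).2 hb
    obtain ⟨n, hn0, hn1⟩ := (hY.to_subgroup (MulAction.stabilizer Y (g : Out K ⧸ Φ))).nontrivial_iff_card.1
      this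
    obtain ⟨y, hy⟩ := exists_prime_orderOf_dvd_card' (G := MulAction.stabilizer Y (g : Out K ⧸ Φ)) 2
      (hn1 ▸ dvd_pow_self 2 hn0.ne')
    have o : orderOf ((y : Y) : Out K) = 2 := by rw [orderOf_coe, orderOf_coe, hy]
    have m : ((((y : Y) : Out K) * g : Out K) : Out K ⧸ Φ) = g := y.2
    have m2 : g⁻¹ * ((y : Y) : Out K) * g⁻¹⁻¹ ∈ Φ := by
      have := QuotientGroup.eq.1 m.symm
      simpa [mul_assoc] using this
    have := (h _ m2 (((MulAut.conj g⁻¹).orderOf_eq _).trans o)).conj g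
    refine hn _ (y : Y).2 (fun e => ?_) (by simpa [mul_assoc] using this)
    rw [e, orderOf_one] at o
    exact absurd o (by norm_num)
  have e := Nat.card_congr (MulAction.selfEquivOrbitsQuotientProd free)
  rw [Nat.card_prod] at e
  obtain ⟨n, hn1⟩ := hY.exists_card_eq
  refine h4 (Dvd.dvd.trans ?_ (Dvd.intro_left _ e.symm))
  rw [hn1]
  rcases n with _ | _ | n
  · have := (Nat.card_eq_one_iff_unique.1 hn1).1
    exact absurd isCyclic_of_subsingleton hc
  · exact absurd (isCyclic_of_prime_card (p := 2) (hn1.trans (by norm_num))) hc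
  · exact ⟨2 ^ n, by ring⟩

theorem out2_of_field [Finite K] {Γ : Type*} [Group Γ] (fld : Γ →* MulAut K)
    (hinj : ∀ σ, fld σ ∈ Inn K → σ = 1) (hm : Nat.card (Out K) ∣ m * Nat.card Γ) (h4 : ¬ 4 ∣ m)
    (h : ∀ σ, orderOf σ = 2 → ∃ x : K, orderOf x = s ∧ fld σ x = x) : Out2 K s := by
  let f : Γ →* Out K := (QuotientGroup.mk' _).comp fld
  have inj : Function.Injective f :=
    (injective_iff_map_eq_one f).2 fun σ e => hinj σ ((QuotientGroup.eq_one_iff _).1 e)
  refine out2_of_sub f.range (fun k => h4 (k.trans ?_)) ?_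
  · rw [← f.range.index_mul_card, Nat.card_congr (f.ofInjective inj).toEquiv] at hm
    exact Nat.dvd_of_mul_dvd_mul_right Nat.card_pos hm
  · rintro _ ⟨σ, rfl⟩ o
    exact ⟨fld σ, rfl, h σ ((orderOf_injective f inj σ).symm.trans o)⟩

theorem fixO_of_fld (h : Fld K l a) (hl : l.Prime) {y : Out K} (hy : orderOf y = l) :
    FixO K y a := by
  obtain ⟨θ, rfl⟩ := QuotientGroup.mk_surjective y
  obtain ⟨x, h1, h2⟩ := h θ (fun e => by
    rw [(QuotientGroup.eq_one_iff _).2 e, orderOf_one] at hy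
    exact hl.one_lt.ne hy) ((QuotientGroup.eq_one_iff _).1 (by
      rw [QuotientGroup.mk_pow, ← hy, pow_orderOf_eq_one]))
  obtain ⟨c, hc⟩ := isConj_iff.1 h2
  refine ⟨MulAut.conj c⁻¹ * θ, ?_, x, h1, by simp [← hc, mul_assoc]⟩
  rw [QuotientGroup.mk_mul, (QuotientGroup.eq_one_iff (N := Inn K) _).2 ⟨c⁻¹, rfl⟩, one_mul]

theorem cen_of_cyc [Finite K] (D : Subgroup (Out K)) (hD : commutator (Out K) ≤ D) (hc : IsCyclic D)
    (hd : Nat.card D ≤ d) (h : ∀ s : ℕ, s.Prime → s ≤ d → s ∣ Nat.card K) : Cen K := by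
  intro s hs h1 y hy
  have hsd : d < s := lt_of_not_ge fun c => h1 (h s hs c)
  have hN : D.Normal := ⟨fun n hn g => by
    have : g * n * g⁻¹ = ⁅g, n⁆ * n := by simp [commutatorElement_def]
    rw [this]
    exact mul_mem (hD (commutator_mem_commutator (mem_top _) (mem_top _))) hn⟩
  have cop : ∀ n, 0 < n → n ≤ d → s.Coprime n := fun n h0 h2 =>
    (Nat.Prime.coprime_iff_not_dvd hs).2 fun c => by have := Nat.le_of_dvd h0 c; omega
  have k1 : MulAut.conjNormal (H := D) y = 1 := by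
    rw [← orderOf_eq_one_iff]
    refine Nat.eq_one_of_dvd_coprimes ?_ (hy ▸ orderOf_map_dvd _ y) (orderOf_dvd_natCard _)
    rw [hc.card_mulAut]
    exact cop _ (Nat.totient_pos.2 Nat.card_pos) ((Nat.totient_le _).trans hd)
  refine mem_center_iff.2 fun g => ?_
  have m : ⁅g, y⁆ ∈ D := hD (commutator_mem_commutator (mem_top _) (mem_top _))
  have c : Commute ⁅g, y⁆ y := by
    have := congrArg Subtype.val (DFunLike.congr_fun k1 ⟨_, m⟩)
    simp only [MulAut.conjNormal_apply, MulAut.one_apply] at this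
    exact (mul_inv_eq_iff_eq_mul.1 this).symm
  have p1 : ⁅g, y⁆ ^ s = 1 := by
    have := c.mul_pow s
    rw [← hy, pow_orderOf_eq_one, mul_one] at this
    rw [← hy, ← this, commutatorElement_def, inv_mul_cancel_right, conj_pow, pow_orderOf_eq_one]
    simp
  have p2 : orderOf ⁅g, y⁆ = 1 := Nat.eq_one_of_dvd_coprimes (cop _ Nat.card_pos hd)
    (orderOf_dvd_of_pow_eq_one p1) (orderOf_dvd_natCard D m)
  exact commutatorElement_eq_one_iff_mul_comm.1 (orderOf_eq_one_iff.1 p2)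

theorem cen_of_prod {A C : Type*} [Group A] [Finite A] [CommGroup C] (e : Out K ≃* A × C)
    (h : ∀ s : ℕ, s.Prime → s ∣ Nat.card A → s ∣ Nat.card K) : Cen K := by
  intro s hs h1 y hy
  have k : (e y).1 = 1 := by
    rw [← orderOf_eq_one_iff]
    refine Nat.eq_one_of_dvd_coprimes
      ((Nat.Prime.coprime_iff_not_dvd hs).2 fun c => h1 (h s hs c)) ?_ (orderOf_dvd_natCard _)
    exact hy ▸ orderOf_map_dvd ((MonoidHom.fst A C).comp e.toMonoidHom) y
  refine mem_center_iff.2 fun g => e.injective (Prod.ext ?_ ?_)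
  · simp [k]
  · simp [mul_comm]

theorem fc_of_exp (hm : ∀ y ∈ commutator (Out K), y ^ m = 1)
    (h : ∀ r : ℕ, r.Prime → r ≠ 2 → r ∣ m → r ∣ Nat.card K ∧
      ∀ s : ℕ, s.Prime → s ≠ r → ¬ Cy K s → Adj K r s ∨ Fld K r s) : FC K := by
  intro r hr h2 y hy o
  obtain ⟨h3, h4⟩ := h r hr h2 (o ▸ orderOf_dvd_of_pow_eq_one (hm y hy))
  exact ⟨h3, fun s hs a b => (h4 s hs a b).imp_right fun c => fixO_of_fld c hr o⟩

theorem lf_of_prod {A C : Type*} [Group A] [Finite A] [CommGroup C] (e : Out K ≃* A × C)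
    (hA : Nat.card A ∣ 24) (h2 : Big K 2) (h3 : Big K 3) (h6 : 2 ∣ Nat.card K ∧ 3 ∣ Nat.card K) :
    Lf K := by
  have pr : ∀ s : ℕ, s.Prime → s ∣ 24 → s = 2 ∨ s = 3 := fun s hs c => by
    have := Nat.le_of_dvd (by norm_num) c
    interval_cases s <;> first | omega | exact absurd hs (by norm_num)
  refine ⟨h2.fb, fc_of_exp (m := 24) (fun y hy => ?_) fun r hr r2 c => ?_,
    cen_of_prod e fun s hs c => ?_⟩
  · have k : (e y).2 = 1 :=
      Abelianization.commutator_subset_ker ((MonoidHom.snd A C).comp e.toMonoidHom) hy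
    refine e.injective (Prod.ext ?_ ?_)
    · simpa using orderOf_dvd_iff_pow_eq_one.1 ((orderOf_dvd_natCard (e y).1).trans hA)
    · simp [k]
  · obtain rfl := (pr r hr c).resolve_left r2
    exact ⟨h6.2, fun s hs a b => .inl (h3 s hs a b)⟩
  · rcases pr s hs (c.trans hA) with rfl | rfl
    exacts [h6.1, h6.2]

/-- `|Out(K)'| ∣ 3` -/
theorem lf_of_three [Finite K] (h : Nat.card (commutator (Out K)) ∣ 3) (hb : FB K)
    (h3 : ∀ s : ℕ, s.Prime → s ≠ 3 → ¬ Cy K s → Adj K 3 s ∨ Fld K 3 s)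
    (h6 : 2 ∣ Nat.card K ∧ 3 ∣ Nat.card K) : Lf K := by
  refine ⟨hb, fc_of_exp (m := 3) (fun y hy => ?_) fun r hr r2 c => ?_,
    cen_of_cyc (d := 3) _ le_rfl (isCyclic_of_card_dvd_prime (p := 3) h) (Nat.le_of_dvd (by norm_num) h)
      fun s hs c => ?_⟩
  · exact orderOf_dvd_iff_pow_eq_one.1 ((orderOf_dvd_natCard _ hy).trans h)
  · obtain rfl := (Nat.prime_dvd_prime_iff_eq hr Nat.prime_three).1 c
    exact ⟨h6.2, h3⟩
  · have := hs.two_le
    interval_cases s
    exacts [h6.1, h6.2]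

theorem comm_of_proj {O Γ : Type*} [Group O] [Group Γ] [IsCyclic Γ] (φ : O →* Γ)
    (h : Nat.card φ.ker ∣ 2) : IsMulCommutative O := by
  refine φ.isMulCommutative_of_isCyclic_of_ker_le_center fun x hx => mem_center_iff.2 fun g => ?_
  by_cases h1 : x = 1
  · simp [h1]
  have hc : Nat.card φ.ker = 2 := by
    refine ((Nat.dvd_prime Nat.prime_two).1 h).resolve_left fun c => h1 ?_
    rwa [card_eq_one.1 c] at hx
  obtain ⟨y, -, hy⟩ := (Nat.card_eq_two_iff' (1 : φ.ker)).1 hc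
  have m := φ.normal_ker.conj_mem x hx g
  have e1 := hy ⟨x, hx⟩ fun c => h1 (congrArg Subtype.val c)
  have e2 := hy ⟨_, m⟩ fun c => h1 (by simpa using congrArg Subtype.val c)
  exact mul_inv_eq_iff_eq_mul.1 (congrArg Subtype.val (e2.trans e1.symm))

/-- a group whose outer automorphisms all come from a cyclic group -/
theorem isCyclic_out_of_field [Finite K] {Γ : Type*} [Group Γ] [IsCyclic Γ] (fld : Γ →* MulAut K)
    (hinj : ∀ σ, fld σ ∈ Inn K → σ = 1) (hm : Nat.card (Out K) = Nat.card Γ) : IsCyclic (Out K) := by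
  let f : Γ →* Out K := (QuotientGroup.mk' _).comp fld
  have inj : Function.Injective f :=
    (injective_iff_map_eq_one f).2 fun σ e => hinj σ ((QuotientGroup.eq_one_iff _).1 e)
  exact isCyclic_of_surjective f ((Nat.bijective_iff_injective_and_card f).2 ⟨inj, hm.symm⟩).2

theorem Lf.congr (h : Lf K) (e : G ≃* K) : Lf G := by
  let φ : Out G ≃* Out K := QuotientGroup.congr _ _ (MulAut.congr e) (by
    ext φ
    constructor
    · rintro ⟨_, ⟨g, rfl⟩, rfl⟩
      exact ⟨e g, MulEquiv.ext fun x => by simp⟩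
    · rintro ⟨g, rfl⟩
      exact ⟨_, ⟨e.symm g, rfl⟩, MulEquiv.ext fun x => by simp⟩)
  have cy : ∀ s, ¬ Cy G s → ¬ Cy K s := fun s h1 h2 => h1 fun P hP => by
    have := h2 _ (hP.map e.toMonoidHom)
    exact (P.equivMapOfInjective e.toMonoidHom e.injective).isCyclic.2 this
  have adj : ∀ a b, Adj K a b → Adj G a b := fun a b c => c.map e.symm.toMonoidHom e.symm.injective
  have fx : ∀ (y : Out G) s, FixO K (φ y) s → FixO G y s := by
    rintro y s ⟨θ, h1, x, h2, h3⟩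
    obtain ⟨θ, rfl⟩ := (MulAut.congr e).surjective θ
    refine ⟨θ, φ.injective h1, e.symm x, by rw [MulEquiv.orderOf_eq, h2], e.injective ?_⟩
    simpa using h3
  have cd : Nat.card G = Nat.card K := Nat.card_congr e.toEquiv
  refine ⟨fun s hs h2 hc => (h.fb s hs h2 (cy s hc)).imp (adj _ _) fun o Y hY hn => ?_,
    fun r hr h2 y hy o => ?_, fun s hs h1 y hy => ?_⟩
  · obtain ⟨_, ⟨y, y1, rfl⟩, y2, y3⟩ := o _ (hY.map φ.toMonoidHom) fun c =>
      hn ((Y.equivMapOfInjective φ.toMonoidHom φ.injective).isCyclic.2 c)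
    exact ⟨y, y1, fun c => y2 (by rw [c, map_one]), fx y s y3⟩
  · have m : φ y ∈ commutator (Out K) := by
      have := mem_map_of_mem φ.toMonoidHom hy
      rw [map_commutator_eq] at this
      exact commutator_mono le_top le_top this
    obtain ⟨a1, a2⟩ := h.fc r hr h2 _ m ((φ.orderOf_eq y).trans o)
    exact ⟨cd ▸ a1, fun s hs a b => (a2 s hs a (cy s b)).imp (adj _ _) (fx y s)⟩
  · have := h.cen s hs (cd ▸ h1) _ ((φ.orderOf_eq y).trans hy)
    exact mem_center_iff.2 fun g => φ.injective (by rw [map_mul, map_mul, mem_center_iff.1 this])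

end Cfsg.Agent.ARS
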